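import Mathlib
import Cfsg.Agent.Base
import Cfsg.Agent.Lib.Perm27.TIFN
import Cfsg.Agent.Lib.Deg.Basic

/-! A character that restricts to `ρ - 1` on a coherent TI-subgroup with Frobenius normaliser is
irreducible. -/

set_option autoImplicit false
set_option linter.unusedSectionVars false
set_option linter.style.haveILetI false

namespace H72.Rk

open Subgroup Cfsg H6 H27 H53.Feit
open scoped ComplexConjugate Classical

section

variable {N : Type*} [Group N] [Fintype N]

theorem mult_le {φ : N → ℂ} (h : IsCharacter N φ) : ∃ m d : ℕ, classInner φ (fun _ => 1) = m ∧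
    φ 1 = d ∧ m ≤ d ∧ (m = d → ∀ k, φ k = φ 1) := by
  obtain ⟨m, hm⟩ := char_inner_nat h (irr_isCharacter isIrrCharacter_one)
  obtain ⟨d, hd⟩ := char_one_nat h
  have h1 : IsCharacter N (φ - (m : ℂ) • fun _ => 1) := isCharacter_of_inner
    (isClassFunction_sub (char_isClassFunction h) (isClassFunction_smul _ (isClassFunction_const _)))
    fun ψ hψ => by
      rw [classInner_sub_left, classInner_smul_left, irr_inner isIrrCharacter_one hψ]
      split_ifs with e
      · exact ⟨0, by rw [← e, hm]; simp⟩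
      · simpa using char_inner_nat h (irr_isCharacter hψ)
  obtain ⟨k, hk⟩ := char_one_nat h1
  simp only [Pi.sub_apply, Pi.smul_apply, smul_eq_mul, mul_one, hd] at hk
  refine ⟨m, d, hm, hd, ?_, fun e k => ?_⟩
  · have : d = m + k := by exact_mod_cast (by linear_combination hk : (d : ℂ) = m + k)
    omega
  · have := sub_eq_zero.1 (char_eq_zero_of_one h1 (by simp [hd, e]))
    rw [this]
    rfl

theorem inner_const {φ : N → ℂ} {c : ℂ} (h : ∀ k, k ≠ 1 → φ k = c) :
    Nat.card N * classInner φ (fun _ => 1) = φ 1 + (Nat.card N - 1) * c := by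
  rw [card_mul_classInner, ← Finset.add_sum_erase _ _ (Finset.mem_univ 1),
    Finset.sum_congr rfl (g := fun _ => c) fun k hk => by simp [h k (Finset.ne_of_mem_erase hk)],
    Finset.sum_const, Finset.card_erase_of_mem (Finset.mem_univ _), Finset.card_univ,
    Nat.card_eq_fintype_card, nsmul_eq_mul, Nat.cast_sub Fintype.card_pos]
  simp

theorem exists_small {L Q : Subgroup N} [Q.Normal] (hQ : Q ≤ L) (l : L →* ℂˣ) (h1 : l ≠ 1)
    (h2 : ∀ k : L, (k : N) ∈ Q → l k = 1) :
    ∃ χ ∈ Sker L, (∀ q ∈ Q, χ q = χ 1) ∧ ∃ n : ℕ, χ 1 = n ∧ n ≤ L.index := by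
  obtain ⟨χ, hχ, hne⟩ := H7.exists_irr_over L (θ := fun k => (l k : ℂ)) (by simp)
  obtain ⟨n, -, hn⟩ := irr_one_pos hχ
  refine ⟨χ, by_contra fun hc => hne ?_, H7.res_eq_const_of_inner_one_ne_zero hχ ?_, n, hn, ?_⟩
  · rw [show (fun k : L => χ k) = (n : ℂ) • fun k => ((1 : L →* ℂˣ) k : ℂ) from funext fun k => by
      simp [eq_of_notMem_Sker hχ hc k.2, hn], classInner_smul_left, hom_inner, if_neg h1.symm, mul_zero]
  · obtain ⟨m, hm⟩ := char_inner_nat (isCharacter_comp (inclusion hQ) (isCharacter_sub_of_inner_ne_zero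
      (isCharacter_restrict L (irr_isCharacter hχ)) (isIrrCharacter_hom l) hne))
      (irr_isCharacter isIrrCharacter_one)
    rw [show (fun k : Q => χ k) = (fun k : Q => ((fun k : L => χ k) - fun k => (l k : ℂ))
      (inclusion hQ k)) + fun _ => 1 from funext fun k => by simp [h2 (inclusion hQ k) k.2],
      classInner_add_left, hm, classInner_one_one]
    exact_mod_cast Nat.succ_ne_zero m
  · obtain ⟨k, hk⟩ := char_one_nat (isCharacter_sub_of_inner_ne_zero (H7.isCharacter_indFun_hom L l) hχ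
      ((H7.inner_indFun_ne_zero_iff L _ (irr_isClassFunction hχ)).2 hne))
    rw [Pi.sub_apply, H7.indFun_one, hn] at hk
    have : L.index = n + k := by exact_mod_cast (by simpa using sub_eq_iff_eq_add'.1 hk : (L.index : ℂ) = n + k)
    omega

end

variable {G : Type*} [Group G] [Fintype G] {N K : Subgroup G} [Fintype N] [(K.subgroupOf N).Normal]
  (hTI : ∀ g : G, g ∉ N → ∀ k ∈ K, g * k * g⁻¹ ∈ K → k = 1)
  (hC : ∀ k ∈ K, k ≠ 1 → centralizer ({k} : Set G) ≤ K)
  {f : (N → ℂ) → (G → ℂ)} (hf : CohW (Sker (K.subgroupOf N)) (H7.indLin N) f)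

include hf hC in
theorem rel_of_const {ψ : G → ℂ} (hψ : IsClassFunction G ψ) {c : ℂ} (h : ∀ k ∈ K, k ≠ 1 → ψ k = c)
    {χ ξ : N → ℂ} (hχ : χ ∈ Sker (K.subgroupOf N)) (hξ : ξ ∈ Sker (K.subgroupOf N)) :
    ξ 1 * classInner ψ (f χ) = χ 1 * classInner ψ (f ξ) := by
  have h1 := inner_res_rel hf hψ hχ hξ
  obtain ⟨n, -, hn⟩ := irr_one_pos hχ.1
  obtain ⟨m, -, hm⟩ := irr_one_pos hξ.1
  have h2 : classInner (fun n : N => ψ n) (ξ 1 • χ - χ 1 • ξ) =
      classInner (c • fun _ : N => (1 : ℂ)) (ξ 1 • χ - χ 1 • ξ) := by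
    rw [classInner_def, classInner_def]
    congr 1
    refine Finset.sum_congr rfl fun x _ => ?_
    by_cases hx : (x : G) ∈ K
    · by_cases hx1 : x = 1
      · simp [hx1, mul_comm]
      · simp [h x hx (fun h => hx1 (Subtype.ext h))]
    · rw [diff_vanish hC hχ hξ _ _ x hx]; simp
  have h3 : ∀ η ∈ Sker (K.subgroupOf N), classInner (fun _ : N => (1 : ℂ)) η = 0 := fun η hη =>
    irr_inner_ne isIrrCharacter_one hη.1 (fun e => by
      obtain ⟨-, k, -, hk⟩ := hη
      exact hk (by rw [← e]))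
  simp only [classInner_sub_right, classInner_smul_right, classInner_smul_left, h3 χ hχ, h3 ξ hξ,
    hn, hm, Complex.conj_natCast] at h2
  rw [hn, hm, h2] at h1
  rw [hn, hm]
  linear_combination -h1

include hf in
theorem one_rel {χ ξ : N → ℂ} (hχ : χ ∈ Sker (K.subgroupOf N)) (hξ : ξ ∈ Sker (K.subgroupOf N)) :
    ξ 1 * f χ 1 = χ 1 * f ξ 1 := by
  have := congrFun (hf.eq χ hχ ξ hξ) 1
  rw [H7.indLin_apply, H7.indFun_one] at this
  simp only [Pi.sub_apply, Pi.smul_apply, smul_eq_mul] at this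
  linear_combination -this

include hf hC in
theorem deg_le {θ : G → ℂ} (hθ : IsCharacter G θ) (h1 : θ 1 = Nat.card (K.subgroupOf N) - 1) {c : ℂ}
    (h2 : ∀ k ∈ K, k ≠ 1 → θ k = c) {χ : N → ℂ} (hχ : χ ∈ Sker (K.subgroupOf N)) {n t : ℕ}
    (hn : χ 1 = n) (ht : classInner θ (f χ) * f χ 1 = t) : t * (K.subgroupOf N).index ≤ n ^ 2 := by
  let Θ : G → ℂ := ∑ ξ : IrrCharacter N,
    if (ξ : N → ℂ) ∈ Sker (K.subgroupOf N) then classInner θ (f ξ) • f ξ else 0
  have hc := char_isClassFunction hθ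
  have k1 : ∀ ψ : G → ℂ, classInner Θ ψ = ∑ ξ : IrrCharacter N,
      if (ξ : N → ℂ) ∈ Sker (K.subgroupOf N) then classInner θ (f ξ) * classInner (f ξ) ψ else 0 :=
    fun ψ => by
      rw [classInner_sum_left]
      exact Finset.sum_congr rfl fun ξ _ => by
        split_ifs
        exacts [classInner_smul_left _ _ _, classInner_zero_left _]
  have k2 : IsCharacter G (θ - Θ) := isCharacter_of_inner (isClassFunction_sub hc fun g x => by
      simp only [Θ, Finset.sum_apply]
      refine Finset.sum_congr rfl fun ξ _ => ?_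
      split_ifs with e
      · simp [gen_isClassFunction (hf.gen _ e) g x]
      · rfl) fun ψ hψ => by
    by_cases e : ∃ ξ ∈ Sker (K.subgroupOf N), classInner ψ (f ξ) ≠ 0
    · obtain ⟨ξ, hξ, e⟩ := e
      have : classInner (θ - Θ) (f ξ) = 0 := by
        rw [classInner_sub_left, k1, Finset.sum_eq_single ⟨ξ, hξ.1⟩, if_pos hξ, hf.inner _ hξ _ hξ,
          irr_inner_self hξ.1, mul_one, sub_self]
        · intro η _ hη
          split_ifs with e1
          · rw [hf.inner _ e1 _ hξ, irr_inner_ne η.2 hξ.1 fun e2 => hη (Subtype.ext e2), mul_zero]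
          · rfl
        · simp
      rcases DIrr.eq_or_neg (Or.inl hψ) (hf.dirr Sker_irr hξ) e with rfl | rfl
      · exact ⟨0, by simpa using this⟩
      · exact ⟨0, by rw [classInner_neg_right, this]; simp⟩
    · push Not at e
      rw [classInner_sub_left, k1, Finset.sum_eq_zero fun ξ _ => by
        split_ifs with e1
        · rw [← conj_classInner ψ, e _ e1]; simp
        · rfl, sub_zero]
      exact char_inner_nat hθ (irr_isCharacter hψ)
  obtain ⟨m, hm⟩ := char_one_nat k2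
  have k3 : (n : ℂ) ^ 2 * Θ 1 = t * ((K.subgroupOf N).index * (Nat.card (K.subgroupOf N) - 1)) := by
    rw [← sum_sq_Sker, ← ht]
    simp only [Θ, Finset.sum_apply, Finset.mul_sum]
    refine Finset.sum_congr rfl fun ξ _ => ?_
    split_ifs with e
    · have a1 := rel_of_const hC hf hc h2 hχ e
      have a2 := one_rel hf hχ e
      rw [hn] at a1 a2
      rw [Pi.smul_apply, smul_eq_mul]
      linear_combination -(n * classInner θ (f ξ)) * a2 - (ξ : N → ℂ) 1 * f χ 1 * a1
    · simp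
  obtain ⟨k, hk, hk1⟩ := hχ.2
  have hl : 1 < Nat.card (K.subgroupOf N) := (one_lt_card_iff_ne_bot _).2 fun e => hk1 (by
    rw [show k = 1 from mem_bot.1 (e ▸ hk)])
  obtain ⟨l, e⟩ := Nat.exists_eq_add_of_lt hl
  rw [Pi.sub_apply, h1] at hm
  rw [e] at hm k3
  have : n ^ 2 * (l + 1) = t * (K.subgroupOf N).index * (l + 1) + n ^ 2 * m := by
    exact_mod_cast (by push_cast at hm k3 ⊢; linear_combination k3 + (n : ℂ) ^ 2 * hm :
      (n : ℂ) ^ 2 * (l + 1) = t * (K.subgroupOf N).index * (l + 1) + n ^ 2 * m)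
  exact Nat.le_of_mul_le_mul_right (this ▸ Nat.le_add_right _ _) l.succ_pos

include hf hC in
theorem exc_data [IsSimpleGroup G] {Q : Subgroup N} [Fintype Q] (hQ : Q ≠ ⊥) {χ ξ : N → ℂ}
    (hχ : χ ∈ Sker (K.subgroupOf N)) (hξ : ξ ∈ Sker (K.subgroupOf N)) (hne : χ ≠ ξ) {θ : G → ℂ}
    (hθ : IsCharacter G θ) : ∃ (ε : ℤ) (d m t : ℕ), (ε = 1 ∨ ε = -1) ∧ m < d ∧ f χ 1 = ε * d ∧
      classInner (fun q : Q => f χ q) (fun _ => 1) = ε * m ∧ classInner θ (f χ) = ε * t := by
  have key : ∀ {μ : G → ℂ}, IsIrrCharacter G μ → (μ = f χ ∨ μ = -f χ) → ∃ d m t : ℕ, m < d ∧ μ 1 = d ∧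
      classInner (fun q : Q => μ q) (fun _ => 1) = m ∧ classInner θ μ = t := fun {μ} hμ e => by
    obtain ⟨m, d, h1, h2, h3, h4⟩ := mult_le (isCharacter_restrict Q (isCharacter_restrict N
      (irr_isCharacter hμ)))
    obtain ⟨t, ht⟩ := char_inner_nat hθ (irr_isCharacter hμ)
    refine ⟨d, m, t, lt_of_le_of_ne h3 fun e1 => ?_, h2, h1, ht⟩
    obtain ⟨q, hq, q1⟩ := Q.bot_or_exists_ne_one.resolve_left hQ
    have : μ = fun _ => 1 := by_contra fun e2 =>
      q1 (Subtype.ext (eq_one_of_simple hμ e2 (h4 e1 ⟨q, hq⟩)))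
    rcases e with e | e
    · exact not_const_of_exceptional hC hf hχ hξ hne 1 fun k _ _ => by rw [← e, this]
    · exact not_const_of_exceptional hC hf hχ hξ hne (-1) fun k _ _ => by
        rw [← neg_neg (f χ), ← e, this]; rfl
  rcases hf.dirr Sker_irr hχ with e | e
  · obtain ⟨d, m, t, h1, h2, h3, h4⟩ := key e (.inl rfl)
    exact ⟨1, d, m, t, .inl rfl, h1, by simpa using h2, by simpa using h3, by simpa using h4⟩
  · obtain ⟨d, m, t, h1, h2, h3, h4⟩ := key e (.inr rfl)
    refine ⟨-1, d, m, t, .inr rfl, h1, ?_, ?_, ?_⟩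
    · rw [← h2]; simp
    · rw [← h3, show (fun q : Q => (-f χ) q) = -fun q : Q => f χ q from rfl, classInner_neg_left]
      simp
    · rw [← h4, classInner_neg_right]; simp

include hf hC hTI in
theorem theta_irr [IsSimpleGroup G] {Q : Subgroup N} [Q.Normal] (hQ : Q ≤ K.subgroupOf N)
    (Q1 : Q ≠ ⊥) (l : K.subgroupOf N →* ℂˣ) (l1 : l ≠ 1)
    (l2 : ∀ k : K.subgroupOf N, (k : N) ∈ Q → l k = 1) {θ : G → ℂ} (hθ : IsCharacter G θ)
    (h1 : θ 1 = Nat.card (K.subgroupOf N) - 1) (h2 : ∀ k ∈ K, k ≠ 1 → θ k = -1) :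
    IsIrrCharacter G θ := by
  obtain ⟨χ, hχ, χQ, n, hn, ne⟩ := exists_small hQ l l1 l2
  have hc := char_isClassFunction hθ
  have n0 : n ≠ 0 := fun e => irr_one_ne_zero hχ.1 (by rw [hn, e, Nat.cast_zero])
  have e0 : 0 < (K.subgroupOf N).index := Nat.pos_of_ne_zero index_ne_zero_of_finite
  by_cases h0 : classInner θ (f χ) = 0
  · obtain ⟨j, ej⟩ := Nat.exists_eq_add_of_lt ((one_lt_card_iff_ne_bot _).2 (ne_bot_of_le_ne_bot Q1 hQ))
    have c0 : (Nat.card (K.subgroupOf N) : ℂ) ≠ 0 := card_ne_zero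
    obtain ⟨ψ, hψ, hne⟩ := exists_irr_inner_ne_zero hc fun e => by
      rw [e, ej, Pi.zero_apply] at h1
      exact Nat.succ_ne_zero j (by exact_mod_cast (by push_cast at h1 ⊢; linear_combination -h1 :
        ((j + 1 : ℕ) : ℂ) = 0))
    have r := isCharacter_sub_of_inner_ne_zero hθ hψ hne
    have k1 := fun k => const_of_nonexceptional hf (irr_isClassFunction hψ) (fun ξ hξ => by
      by_contra e
      have := rel_of_const hC hf hc h2 hχ hξ
      rw [h0, mul_zero, eq_comm, mul_eq_zero, or_iff_right (irr_one_ne_zero hχ.1)] at this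
      rcases DIrr.eq_or_neg (Or.inl hψ) (hf.dirr Sker_irr hξ) e with rfl | rfl
      · exact hne this
      · exact hne (by rw [classInner_neg_right, this, neg_zero])) hχ (k := k)
    have res : ∀ {φ : G → ℂ}, IsCharacter G φ → ∃ m : ℕ,
        classInner (fun k : K.subgroupOf N => φ k) (fun _ => 1) = m := fun h => char_inner_nat
      (isCharacter_restrict _ (isCharacter_restrict N h)) (irr_isCharacter isIrrCharacter_one)
    obtain ⟨m₁, hm₁⟩ := res (irr_isCharacter hψ)
    obtain ⟨m₂, hm₂⟩ := res r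
    have k2 := inner_const (φ := fun k : K.subgroupOf N => θ k) (c := -1) fun k hk =>
      h2 _ k.2 fun e => hk (Subtype.ext (Subtype.ext e))
    have k3 := inner_const (φ := fun k : K.subgroupOf N => ψ k) fun k hk =>
      k1 k k.2 fun e => hk (Subtype.ext e)
    rw [show (fun k : K.subgroupOf N => θ k) = (fun k : K.subgroupOf N => ψ k) +
      fun k : K.subgroupOf N => (θ - ψ) k from funext fun k => by simp, classInner_add_left, hm₁,
      hm₂] at k2
    have k4 : m₁ + m₂ = 0 := by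
      exact_mod_cast mul_left_cancel₀ c0 (by simpa [h1] using k2 :
        (Nat.card (K.subgroupOf N) : ℂ) * (m₁ + m₂) = _ * 0)
    obtain ⟨m, hm⟩ := char_inner_nat (isCharacter_restrict N (irr_isCharacter hψ)) (irr_isCharacter hχ.1)
    obtain ⟨d, d0, hd⟩ := irr_one_pos hψ
    obtain ⟨s, hs⟩ := char_one_nat r
    rw [hm₁, show m₁ = 0 by omega, hm, hn, H7.card_eq_index_mul (K.subgroupOf N)] at k3
    simp only [OneMemClass.coe_one, hd] at k3
    rw [Pi.sub_apply, h1, hd, ej] at hs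
    have k5 : d * n = (j + 1) * (m * (K.subgroupOf N).index) := by
      have : (n : ℂ) ≠ 0 := Nat.cast_ne_zero.2 n0
      refine Nat.cast_injective (R := ℂ) (mul_left_cancel₀ c0 ?_)
      field_simp at k3
      rw [ej] at k3 ⊢
      push_cast at k3 ⊢
      linear_combination -k3
    have k6 : j + 1 = d + s := by exact_mod_cast (by push_cast at hs ⊢; linear_combination hs :
      (j : ℂ) + 1 = d + s)
    have k7 : (j + 1) * n ≤ d * n := k5 ▸ Nat.mul_le_mul_left _ (ne.trans (Nat.le_mul_of_pos_left _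
      (Nat.pos_of_ne_zero fun e => by rw [e] at k5; simp [n0, d0.ne'] at k5)))
    replace k7 := Nat.le_of_mul_le_mul_right k7 (Nat.pos_of_ne_zero n0)
    rw [sub_eq_zero.1 (char_eq_zero_of_one r (by
      rw [Pi.sub_apply, h1, hd, ej, show d = j + 1 by omega]; push_cast; ring))]
    exact hψ
  exfalso
  obtain ⟨ξ, hξ₀, hk⟩ := H87.exists_irr_not_le_charKer Q1
  obtain ⟨q, hq, q1⟩ := SetLike.not_le_iff_exists.1 hk
  rw [mem_charKer (irr_isCharacter hξ₀)] at q1
  have hξ : ξ ∈ Sker (K.subgroupOf N) := ⟨hξ₀, q, hQ hq, q1⟩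
  have hne : χ ≠ ξ := fun e => q1 (e ▸ χQ q hq)
  obtain ⟨ε, d, m, t, a1, a2, a3, a4, a5⟩ := exc_data hC hf Q1 hχ hξ hne hθ
  obtain ⟨ε', d', m', -, b1, b2, b3, b4, -⟩ := exc_data hC hf Q1 hξ hχ hne.symm hθ
  obtain ⟨n', n'0, hn'⟩ := irr_one_pos hξ₀
  have k1 := deg_le hC hf hθ h1 h2 hχ hn (t := t * d) (by
    rw [a5, a3]; rcases a1 with rfl | rfl <;> simp)
  have t0 : 0 < t := Nat.pos_of_ne_zero fun e => h0 (by rw [a5, e]; simp)
  have k2 : d ≤ n := Nat.le_of_mul_le_mul_right (((Nat.mul_le_mul_right _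
    (Nat.le_mul_of_pos_left d t0)).trans k1).trans (sq n ▸ Nat.mul_le_mul_left n ne)) e0
  have k3 := one_rel hf hχ hξ
  have k4 : (fun q : Q => f χ q) = (n : ℂ) • (fun _ => 1) + ((n : ℂ) / n') •
      ((fun q : Q => f ξ q) - fun q : Q => ξ q) := funext fun q => by
    have : (n' : ℂ) ≠ 0 := Nat.cast_ne_zero.2 n'0.ne'
    have e := congrFun (hf.eq χ hχ ξ hξ) q
    rw [H7.indLin_apply] at e
    by_cases e1 : (q : N) = 1
    · simp only [Pi.add_apply, Pi.smul_apply, Pi.sub_apply, e1, OneMemClass.coe_one, smul_eq_mul]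
      rw [hn, hn'] at k3
      rw [hn']
      field_simp
      linear_combination k3
    · rw [H7.indFun_apply_of_TI N K hTI (diff_classFun hχ hξ _ _) (diff_vanish hC hχ hξ _ _) q
        (hQ q.2) e1] at e
      simp only [Pi.add_apply, Pi.smul_apply, Pi.sub_apply, smul_eq_mul, χQ q q.2, hn, hn'] at e ⊢
      field_simp
      linear_combination -e
  rw [k4, classInner_add_left, classInner_smul_left, classInner_smul_left, classInner_sub_left, b4,
    classInner_one_one, classInner_one_right, H87.sum_normal_eq_zero hξ₀ Q hk, mul_zero] at a4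
  rw [hn, hn', a3, b3] at k3
  have k5 : (n' : ℤ) * (ε * d) = n * (ε' * d') := by exact_mod_cast k3
  have k6 : (n' : ℤ) * n + n * (ε' * m') = n' * (ε * m) := by
    have : (n' : ℂ) ≠ 0 := Nat.cast_ne_zero.2 n'0.ne'
    field_simp at a4
    exact_mod_cast (by linear_combination a4 : (n' : ℂ) * n + n * (ε' * m') = n' * (ε * m))
  have n1 := Nat.pos_of_ne_zero n0
  rcases a1 with rfl | rfl <;> rcases b1 with rfl | rfl <;> nlinarith

end H72.Rk
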